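import Cfsg.Agent.H404.Siegel

/-!
# The 2-part and the odd part of an isometry, in characteristic two

For an isometry `g` with `g ^ (2 ^ a * m) = 1`, `m` odd, `U` is the fixed space of `s = g ^ 2 ^ a`
and `pr z = ∑ i < m, s ^ i z` the projection onto it.
-/

set_option autoImplicit false
set_option linter.unusedSectionVars false

namespace Cfsg.Agent.H404.Parts

open Cfsg QuadraticMap
open Cfsg.Agent.ClassicalGeometry.OrthCharTwo Cfsg.Agent.ClassicalGeometry.OrthDickson
open Cfsg.Agent.ClassicalGeometry.Reflection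
open Cfsg.Agent.H404.Siegel

variable {F : Type*} [Field F] {ι : Type} [Fintype ι] [DecidableEq ι]
variable {Q : QuadraticForm F (ι → F)}

/-- the linear map of an isometry -/
def L (g : Cfsg.isometryGroup F (⇑Q)) : Module.End F (ι → F) where
  toFun := act g
  map_add' := act_add g
  map_smul' := act_smul g

theorem L_apply (g : Cfsg.isometryGroup F (⇑Q)) (z : ι → F) : L g z = act g z := rfl

theorem L_mul (g h : Cfsg.isometryGroup F (⇑Q)) : L (g * h) = L g * L h :=
  LinearMap.ext fun z => act_mul g h z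

theorem L_one : L (1 : Cfsg.isometryGroup F (⇑Q)) = 1 := LinearMap.ext fun z => act_one z

theorem L_pow (g : Cfsg.isometryGroup F (⇑Q)) (n : ℕ) : L (g ^ n) = L g ^ n := by
  induction n with
  | zero => rw [pow_zero, pow_zero, L_one]
  | succ n ih => rw [pow_succ, pow_succ, L_mul, ih]

theorem L_inj {g h : Cfsg.isometryGroup F (⇑Q)} (H : L g = L h) : g = h :=
  act_ext fun x => LinearMap.congr_fun H x

/-- an isometry from a linear map and an inverse of it -/
theorem exists_iso (f f' : Module.End F (ι → F)) (h1 : f * f' = 1) (h2 : f' * f = 1)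
    (h : ∀ z, Q (f z) = Q z) : ∃ g : Cfsg.isometryGroup F (⇑Q), L g = f := by
  let M : Matrix.GeneralLinearGroup ι F :=
    ⟨LinearMap.toMatrix' f, LinearMap.toMatrix' f', by
      rw [← LinearMap.toMatrix'_mul, h1, LinearMap.toMatrix'_one], by
      rw [← LinearMap.toMatrix'_mul, h2, LinearMap.toMatrix'_one]⟩
  have hM : ∀ z, (M : Matrix ι ι F).mulVec z = f z := fun z => by
    change (LinearMap.toMatrix' f).mulVec z = f z
    rw [LinearMap.toMatrix'_mulVec]
  refine ⟨⟨M, ?_⟩, ?_⟩
  · rw [mem_isometryGroup_iff]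
    intro x
    rw [hM, h]
  · exact LinearMap.ext fun z => hM z

/-! ### Linear algebra -/

section nil

variable {V : Type*} [AddCommGroup V] [Module F V]

/-- `∑ i < 2 ^ a, T ^ i = (1 + T) ^ (2 ^ a - 1)` in characteristic two -/
theorem geom_sum_two (h2 : (2 : F) = 0) (T : Module.End F V) (a : ℕ) :
    (1 + T) ^ 2 ^ a = 1 + T ^ 2 ^ a ∧
      ∑ i ∈ Finset.range (2 ^ a), T ^ i = (1 + T) ^ (2 ^ a - 1) := by
  have h2' : ∀ S : Module.End F V, S + S = 0 := by
    intro S
    rw [← two_smul F S, h2, zero_smul]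
  induction a with
  | zero => simp
  | succ a ih =>
    obtain ⟨h3, h4⟩ := ih
    have h5 : (1 + T) ^ 2 ^ (a + 1) = 1 + T ^ 2 ^ (a + 1) := by
      rw [pow_succ, pow_mul, h3, pow_mul, pow_two, mul_add, mul_one, add_mul, one_mul, ← pow_two]
      have h6 := h2' (T ^ 2 ^ a)
      calc 1 + T ^ 2 ^ a + (T ^ 2 ^ a + (T ^ 2 ^ a) ^ 2)
          = 1 + (T ^ 2 ^ a + T ^ 2 ^ a) + (T ^ 2 ^ a) ^ 2 := by abel
        _ = _ := by rw [h6, add_zero]
    refine ⟨h5, ?_⟩
    have h6 : 2 ^ (a + 1) = 2 ^ a + 2 ^ a := by rw [pow_succ]; omega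
    have h7 : (1 : ℕ) ≤ 2 ^ a := Nat.one_le_two_pow
    rw [h6, Finset.sum_range_add]
    have h8 : ∑ x ∈ Finset.range (2 ^ a), T ^ (2 ^ a + x)
        = T ^ 2 ^ a * ∑ i ∈ Finset.range (2 ^ a), T ^ i := by
      rw [Finset.mul_sum]
      exact Finset.sum_congr rfl fun x _ => by rw [pow_add]
    rw [h8, h4]
    have h9 : (1 + T) ^ (2 ^ a - 1) + T ^ 2 ^ a * (1 + T) ^ (2 ^ a - 1)
        = (1 + T ^ 2 ^ a) * (1 + T) ^ (2 ^ a - 1) := by rw [add_mul, one_mul]
    rw [h9, ← h3, ← pow_add]
    congr 1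
    omega

/-- Dimension bound: a nilpotent operator `N` on `U` with `N ^ k ≠ 0` and a kernel of dimension at least
`d ≥ 1`. -/
theorem finrank_ge [FiniteDimensional F V] (N : Module.End F V) (U K : Submodule F V)
    (hU : ∀ z ∈ U, N z ∈ U) (hK : ∀ z, z ∈ K ↔ z ∈ U ∧ N z = 0) (d : ℕ) (h2 : d ≤ Module.finrank F K)
    (k n : ℕ) (hn : ∀ z ∈ U, (N ^ n) z = 0) {v : V} (hv : v ∈ U) (hk : (N ^ k) v ≠ 0) :
    k + d ≤ Module.finrank F U := by
  let R : ℕ → Submodule F V := fun j => U.map (N ^ j)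
  have hR : ∀ j, R (j + 1) = (R j).map N := by
    intro j
    change U.map (N ^ (j + 1)) = (U.map (N ^ j)).map N
    rw [pow_succ', ← Submodule.map_comp]
    rfl
  have hle : ∀ j, R (j + 1) ≤ R j := by
    intro j
    rintro _ ⟨z, hz, rfl⟩
    refine ⟨N z, hU z hz, ?_⟩
    rw [pow_succ]
    rfl
  have hRn : ∀ j, n ≤ j → R j = ⊥ := by
    intro j hj
    rw [eq_bot_iff]
    rintro _ ⟨z, hz, rfl⟩
    obtain ⟨i, rfl⟩ := Nat.exists_eq_add_of_le hj
    rw [Submodule.mem_bot, add_comm, pow_add]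
    change (N ^ i) ((N ^ n) z) = 0
    rw [hn z hz, map_zero]
  have hstrict : ∀ j, R j ≠ ⊥ → Module.finrank F (R (j + 1)) < Module.finrank F (R j) := by
    intro j hj
    apply Submodule.finrank_lt_finrank_of_lt
    refine lt_of_le_of_ne (hle j) ?_
    intro heq
    have h3 : ∀ i, R (j + i) = R j := by
      intro i
      induction i with
      | zero => rfl
      | succ i ih => rw [← add_assoc, hR, ih, ← hR, heq]
    exact hj (by rw [← h3 n]; exact hRn _ (by omega))
  have hRk : R k ≠ ⊥ := by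
    intro h
    apply hk
    have : (N ^ k) v ∈ R k := ⟨v, hv, rfl⟩
    rwa [h, Submodule.mem_bot] at this
  have hbot : ∀ j ≤ k, R j ≠ ⊥ := by
    intro j hj h
    apply hRk
    obtain ⟨i, rfl⟩ := Nat.exists_eq_add_of_le hj
    rw [eq_bot_iff, ← h]
    clear hk hRk hj h
    induction i with
    | zero => exact le_refl _
    | succ i ih => exact (hle _).trans ih
  have hR0 : R 0 = U := by
    change U.map (N ^ 0) = U
    rw [pow_zero]
    exact Submodule.map_id U
  -- the first step
  have h1 : Module.finrank F (R 1) + Module.finrank F K = Module.finrank F U := by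
    let φ : U →ₗ[F] V := N.comp U.subtype
    have h3 := LinearMap.finrank_range_add_finrank_ker φ
    have h4 : LinearMap.range φ = R 1 := by
      rw [LinearMap.range_comp, Submodule.range_subtype]
      change U.map N = U.map (N ^ 1)
      rw [pow_one]
    have h5 : (LinearMap.ker φ).map U.subtype = K := by
      ext z
      rw [hK, Submodule.mem_map]
      constructor
      · rintro ⟨⟨y, hy⟩, hy', rfl⟩
        exact ⟨hy, hy'⟩
      · rintro ⟨hz, hz'⟩
        exact ⟨⟨z, hz⟩, hz', rfl⟩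
    rw [← h5, Submodule.finrank_map_subtype_eq, ← h4]
    exact h3
  rcases Nat.eq_zero_or_pos k with rfl | hk0
  · omega
  have h6 : ∀ j, j < k → Module.finrank F (R (j + 1)) + d + j ≤ Module.finrank F U := by
    intro j
    induction j with
    | zero => intro _; rw [zero_add]; omega
    | succ j ih =>
      intro hj
      have h7 := ih (by omega)
      have h8 := hstrict (j + 1) (hbot (j + 1) (by omega))
      omega
  have h7 := h6 (k - 1) (by omega)
  have h8 : k - 1 + 1 = k := by omega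
  rw [h8] at h7
  have h9 : 0 < Module.finrank F (R k) := by
    rw [Nat.pos_iff_ne_zero]
    intro h
    exact hRk (Submodule.finrank_eq_zero.1 h)
  omega

end nil

/-! ### The projection onto the fixed space of an isometry of odd order -/

section odd

variable (s : Cfsg.isometryGroup F (⇑Q)) (m : ℕ)

/-- `∑ i < m, s ^ i` -/
def pr (z : ι → F) : ι → F := ∑ i ∈ Finset.range m, act (s ^ i) z

variable {s m}

theorem act_sum {κ : Type*} (g : Cfsg.isometryGroup F (⇑Q)) (t : Finset κ) (f : κ → ι → F) :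
    act g (∑ i ∈ t, f i) = ∑ i ∈ t, act g (f i) := by
  exact map_sum (L g) f t

theorem pr_eq (z : ι → F) : pr s m z = (∑ i ∈ Finset.range m, L s ^ i) z := by
  rw [LinearMap.sum_apply]
  exact Finset.sum_congr rfl fun i _ => by rw [← L_pow]; rfl

theorem act_pr (hs : s ^ m = 1) (z : ι → F) : act s (pr s m z) = pr s m z := by
  rw [pr, act_sum]
  have h1 : ∀ i, act s (act (s ^ i) z) = act (s ^ (i + 1)) z := fun i => by
    rw [← act_mul, ← pow_succ']
  simp_rw [h1]
  have h2 := Finset.sum_range_succ' (fun i => act (s ^ i) z) m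
  have h3 := Finset.sum_range_succ (fun i => act (s ^ i) z) m
  rw [h3, hs, pow_zero] at h2
  exact (add_right_cancel h2).symm

theorem pr_of_fixed (h2 : (2 : F) = 0) (hm : Odd m) {z : ι → F} (hz : act s z = z) :
    pr s m z = z := by
  have h1 : ∀ i, act (s ^ i) z = z := by
    intro i
    induction i with
    | zero => rw [pow_zero, act_one]
    | succ i ih => rw [pow_succ, act_mul, hz, ih]
  rw [pr, Finset.sum_congr rfl fun i _ => h1 i, Finset.sum_const, Finset.card_range]
  obtain ⟨k, rfl⟩ := hm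
  rw [add_smul, one_smul, mul_comm, mul_smul, two_smul, add_self_vec h2]
  simp

theorem pr_pr (h2 : (2 : F) = 0) (hs : s ^ m = 1) (hm : Odd m) (z : ι → F) :
    pr s m (pr s m z) = pr s m z := pr_of_fixed h2 hm (act_pr hs z)

theorem pr_add (y z : ι → F) : pr s m (y + z) = pr s m y + pr s m z := by
  rw [pr_eq, pr_eq, pr_eq, map_add]

theorem pr_sub (y z : ι → F) : pr s m (y - z) = pr s m y - pr s m z := by
  rw [pr_eq, pr_eq, pr_eq, map_sub]

theorem polar_sum_left {κ : Type*} (t : Finset κ) (f : κ → ι → F) (y : ι → F) :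
    polar Q (∑ i ∈ t, f i) y = ∑ i ∈ t, polar Q (f i) y := by
  have := map_sum (polarBilin Q).flip f t
  classical
  induction t using Finset.induction_on with
  | empty => simp
  | insert a t ha ih =>
    rw [Finset.sum_insert ha, Finset.sum_insert ha, polar_add_left, ih]
    exact map_sum (polarBilin Q).flip f t

/-- the projection is self-adjoint -/
theorem polar_pr (hs : s ^ m = 1) (y z : ι → F) : polar Q (pr s m y) z = polar Q y (pr s m z) := by
  rw [polar_comm (⇑Q) y, pr, pr, polar_sum_left, polar_sum_left]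
  have h1 : ∀ i ∈ Finset.range m, polar Q (act (s ^ i) y) z = polar Q (act (s ^ (m - i)) z) y := by
    intro i hi
    rw [Finset.mem_range] at hi
    rw [polar_comm, ← polar_act (s ^ i) (act (s ^ (m - i)) z) y, ← act_mul, ← pow_add,
      Nat.add_sub_cancel' hi.le, hs, act_one]
  rw [Finset.sum_congr rfl h1]
  rcases Nat.eq_zero_or_pos m with rfl | hm
  · simp
  obtain ⟨k, rfl⟩ : ∃ k, m = k + 1 := ⟨m - 1, by omega⟩
  rw [Finset.sum_range_succ']
  have h3 : ∑ i ∈ Finset.range k, polar Q (act (s ^ (k + 1 - (i + 1))) z) y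
      = ∑ i ∈ Finset.range k, polar Q (act (s ^ (i + 1)) z) y := by
    rw [← Finset.sum_range_reflect]
    refine Finset.sum_congr rfl fun i hi => ?_
    rw [Finset.mem_range] at hi
    congr 3
    omega
  rw [h3, Finset.sum_range_succ' (fun i => polar Q (act (s ^ i) z) y), Nat.sub_zero, hs, pow_zero]

/-- the fixed space is perpendicular to the kernel of the projection -/
theorem polar_fixed (hs : s ^ m = 1) {y z : ι → F} (hz : pr s m z = 0) :
    polar Q (pr s m y) z = 0 := by
  rw [polar_pr hs, hz, polar_zero_right]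

theorem pr_act (g : Cfsg.isometryGroup F (⇑Q)) (hg : Commute g s) (z : ι → F) :
    pr s m (act g z) = act g (pr s m z) := by
  rw [pr, pr, act_sum]
  refine Finset.sum_congr rfl fun i _ => ?_
  rw [← act_mul, ← act_mul, (hg.pow_right i).eq]

end odd

/-! ### Replacing the part on the fixed space -/

/-- the orders and the projection of `g` -/
structure Split (g : Cfsg.isometryGroup F (⇑Q)) (a m : ℕ) : Prop where
  pow : g ^ (2 ^ a * m) = 1
  odd : Odd m

section split

variable {g : Cfsg.isometryGroup F (⇑Q)} {a m : ℕ} (hs : Split g a m) (h2 : (2 : F) = 0)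
include hs h2

omit h2 in
theorem pow_eq : (g ^ 2 ^ a) ^ m = 1 := by rw [← pow_mul]; exact hs.pow

omit hs in
theorem mem_U {z : ι → F} : z ∈ fixSp (g ^ 2 ^ a) ↔ act (g ^ 2 ^ a) z = z := Iff.rfl

theorem pr_U {z : ι → F} (hz : z ∈ fixSp (g ^ 2 ^ a)) : pr (g ^ 2 ^ a) m z = z :=
  pr_of_fixed h2 hs.odd hz

theorem pr_mem (z : ι → F) : pr (g ^ 2 ^ a) m z ∈ fixSp (g ^ 2 ^ a) := act_pr (pow_eq hs) z

theorem pr_sub_pr (z : ι → F) : pr (g ^ 2 ^ a) m (z - pr (g ^ 2 ^ a) m z) = 0 := by
  rw [pr_sub, pr_U hs h2 (pr_mem hs h2 z), sub_self]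

theorem polar_U_W {y z : ι → F} (hy : y ∈ fixSp (g ^ 2 ^ a)) (hz : pr (g ^ 2 ^ a) m z = 0) :
    polar Q y z = 0 := by
  rw [← pr_U hs h2 hy]
  exact polar_fixed (pow_eq hs) hz

/-- the fixed space of `g ^ 2 ^ a` is non-degenerate -/
theorem nd_U (hQ : (polarBilin Q).Nondegenerate) : Nd Q (fixSp (g ^ 2 ^ a)) := by
  intro x hx h
  refine nondeg_left Q hQ x fun y => ?_
  have h3 : y = pr (g ^ 2 ^ a) m y + (y - pr (g ^ 2 ^ a) m y) := by abel
  rw [h3, polar_add_right, h _ (pr_mem hs h2 y), polar_U_W hs h2 hx (pr_sub_pr hs h2 y), add_zero]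

/-- the isometry which is trivial on the fixed space of `g ^ 2 ^ a` and `g` on its perpendicular space -/
theorem exists_cut : ∃ x : Cfsg.isometryGroup F (⇑Q), (∀ z ∈ fixSp (g ^ 2 ^ a), act x z = z) ∧
    (∀ z, pr (g ^ 2 ^ a) m z = 0 → act x z = act g z) := by
  let P : Module.End F (ι → F) := ∑ i ∈ Finset.range m, L (g ^ 2 ^ a) ^ i
  have hP : ∀ z, P z = pr (g ^ 2 ^ a) m z := fun z => (pr_eq z).symm
  have hPP : P * P = P := LinearMap.ext fun z => by
    rw [Module.End.mul_apply, hP, hP]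
    exact pr_U hs h2 (pr_mem hs h2 z)
  have hc : ∀ h : Cfsg.isometryGroup F (⇑Q), Commute h (g ^ 2 ^ a) → P * L h = L h * P := by
    intro h hh
    refine LinearMap.ext fun z => ?_
    rw [Module.End.mul_apply, Module.End.mul_apply, hP, hP]
    exact pr_act h hh z
  have hg : Commute g (g ^ 2 ^ a) := Commute.self_pow g _
  have h1 : ∀ h h' : Cfsg.isometryGroup F (⇑Q), Commute h (g ^ 2 ^ a) → Commute h' (g ^ 2 ^ a) →
      h * h' = 1 → (P + L h * (1 - P)) * (P + L h' * (1 - P)) = 1 := by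
    intro h h' hh hh' h1
    have h3 := hc h hh
    have h4 := hc h' hh'
    have h5 : L h * L h' = 1 := by rw [← L_mul, h1, L_one]
    have h6 : (1 - P) * P = 0 := by rw [sub_mul, one_mul, hPP, sub_self]
    have h7 : P * (1 - P) = 0 := by rw [mul_sub, mul_one, hPP, sub_self]
    have h8 : (1 - P) * (1 - P) = 1 - P := by rw [mul_sub, mul_one, h6, sub_zero]
    have h9 : (1 - P) * L h' = L h' * (1 - P) := by rw [sub_mul, mul_sub, one_mul, mul_one, h4]
    calc (P + L h * (1 - P)) * (P + L h' * (1 - P))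
        = P * P + P * L h' * (1 - P) + L h * ((1 - P) * P) + L h * ((1 - P) * L h') * (1 - P) := by
          noncomm_ring
      _ = P + L h' * (P * (1 - P)) + L h * L h' * ((1 - P) * (1 - P)) := by
          rw [hPP, h4, h6, h9]; noncomm_ring
      _ = 1 := by rw [h7, h5, h8]; noncomm_ring
  obtain ⟨x, hx⟩ := exists_iso (Q := Q) (P + L g * (1 - P)) (P + L g⁻¹ * (1 - P))
    (h1 g g⁻¹ hg hg.inv_left (mul_inv_cancel g)) (h1 g⁻¹ g hg.inv_left hg (inv_mul_cancel g)) (by
      intro z
      have h3 : (P + L g * (1 - P)) z = pr (g ^ 2 ^ a) m z + act g (z - pr (g ^ 2 ^ a) m z) := by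
        rw [LinearMap.add_apply, Module.End.mul_apply, LinearMap.sub_apply, hP, L_apply]
        rfl
      have h4 : pr (g ^ 2 ^ a) m (act g (z - pr (g ^ 2 ^ a) m z)) = 0 := by
        rw [pr_act g hg, pr_sub_pr hs h2, act_zero]
      have h5 : z = pr (g ^ 2 ^ a) m z + (z - pr (g ^ 2 ^ a) m z) := by abel
      have h6 : Q (act g (z - pr (g ^ 2 ^ a) m z)) = Q (z - pr (g ^ 2 ^ a) m z) := Q_act (Q := ⇑Q) g _
      rw [h3, map_add' Q, polar_fixed (pow_eq hs) h4, h6]
      conv_rhs => rw [h5]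
      rw [map_add' Q (pr (g ^ 2 ^ a) m z) (z - pr (g ^ 2 ^ a) m z),
        polar_fixed (pow_eq hs) (pr_sub_pr hs h2 z)])
  have hx' : ∀ z, act x z = pr (g ^ 2 ^ a) m z + act g (z - pr (g ^ 2 ^ a) m z) := by
    intro z
    rw [← L_apply, hx, LinearMap.add_apply, Module.End.mul_apply, LinearMap.sub_apply, hP, L_apply]
    rfl
  refine ⟨x, fun z hz => ?_, fun z hz => ?_⟩
  · rw [hx', pr_U hs h2 hz, sub_self, act_zero, add_zero]
  · rw [hx', hz, sub_zero, zero_add]

end split

/-- `x` is trivial on the fixed space of `g ^ 2 ^ a` and `g` on its perpendicular space -/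
structure IsCut (g : Cfsg.isometryGroup F (⇑Q)) (a m : ℕ) (x : Cfsg.isometryGroup F (⇑Q)) : Prop where
  fix : ∀ z ∈ fixSp (g ^ 2 ^ a), act x z = z
  eq : ∀ z, pr (g ^ 2 ^ a) m z = 0 → act x z = act g z

section cut

variable {g x : Cfsg.isometryGroup F (⇑Q)} {a m : ℕ} (hs : Split g a m) (h2 : (2 : F) = 0)
  (hx : IsCut g a m x)
include hs h2 hx

theorem cut_pow_W (n : ℕ) {z : ι → F} (hz : pr (g ^ 2 ^ a) m z = 0) : act (x ^ n) z = act (g ^ n) z := by
  induction n generalizing z with
  | zero => rw [pow_zero, pow_zero]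
  | succ n ih =>
    rw [pow_succ, pow_succ, act_mul, act_mul, hx.eq z hz]
    exact ih (by rw [pr_act g (Commute.self_pow g _), hz, act_zero])

theorem cut_pow_U (n : ℕ) {z : ι → F} (hz : z ∈ fixSp (g ^ 2 ^ a)) : act (x ^ n) z = z := by
  induction n with
  | zero => rw [pow_zero, act_one]
  | succ n ih => rw [pow_succ, act_mul, hx.fix z hz, ih]

theorem ext_split {x y : Cfsg.isometryGroup F (⇑Q)} (h1 : ∀ z ∈ fixSp (g ^ 2 ^ a), act x z = act y z)
    (h3 : ∀ z, pr (g ^ 2 ^ a) m z = 0 → act x z = act y z) : x = y := by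
  apply act_ext
  intro z
  have h5 : z = pr (g ^ 2 ^ a) m z + (z - pr (g ^ 2 ^ a) m z) := by abel
  rw [h5, act_add, act_add, h1 _ (pr_mem hs h2 z), h3 _ (pr_sub_pr hs h2 z)]

theorem cut_pow_eq_one : x ^ (2 ^ a * m) = 1 := by
  refine ext_split hs h2 hx (fun z hz => ?_) fun z hz => ?_
  · rw [cut_pow_U hs h2 hx _ hz, act_one]
  · rw [cut_pow_W hs h2 hx _ hz, hs.pow]

theorem dvd_orderOf_cut (hm : orderOf (g ^ 2 ^ a) = m) : m ∣ orderOf x := by
  rw [← hm]
  apply orderOf_dvd_of_pow_eq_one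
  refine ext_split hs h2 hx (fun z hz => ?_) fun z hz => ?_
  · have h3 : ∀ n : ℕ, act ((g ^ 2 ^ a) ^ n) z = z := by
      intro n
      induction n with
      | zero => rw [pow_zero, act_one]
      | succ n ih => rw [pow_succ, act_mul, mem_fixSp.1 hz, ih]
    rw [h3, act_one]
  · rw [← pow_mul, mul_comm, pow_mul]
    have h3 : act (g ^ orderOf x) z = z := by
      rw [← cut_pow_W hs h2 hx _ hz, pow_orderOf_eq_one, act_one]
    have h4 : ∀ n : ℕ, act ((g ^ orderOf x) ^ n) z = z := by
      intro n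
      induction n with
      | zero => rw [pow_zero, act_one]
      | succ n ih => rw [pow_succ, act_mul, h3, ih]
    rw [h4, act_one]

/-- the Dickson invariant of the cut is trivial -/
theorem dsign_cut (hQ : (polarBilin Q).Nondegenerate)
    (hι : (∃ θ : F, θ ≠ 0 ∧ θ ≠ 1) ∨ Fintype.card ι ≠ 4) : dsign Q x = 1 := by
  have h3 : fixSp x = fixSp (g ^ 2 ^ a) := by
    ext z
    constructor
    · intro hz
      have h5 : z = pr (g ^ 2 ^ a) m z + (z - pr (g ^ 2 ^ a) m z) := by abel
      rw [mem_fixSp] at hz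
      have h6 : act g (z - pr (g ^ 2 ^ a) m z) = z - pr (g ^ 2 ^ a) m z := by
        rw [← hx.eq _ (pr_sub_pr hs h2 z), act_sub, hz, hx.fix _ (pr_mem hs h2 z)]
      have h7 : ∀ n : ℕ, act (g ^ n) (z - pr (g ^ 2 ^ a) m z) = z - pr (g ^ 2 ^ a) m z := by
        intro n
        induction n with
        | zero => rw [pow_zero, act_one]
        | succ n ih => rw [pow_succ, act_mul, h6, ih]
      rw [h5]
      exact Submodule.add_mem _ (pr_mem hs h2 z) (mem_fixSp.2 (h7 _))
    · intro hz
      exact mem_fixSp.2 (hx.fix z hz)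
  have h4 : dsign Q x = dsign Q (g ^ 2 ^ a) := by rw [dsign_def, dsign_def, h3]
  rw [h4, ← dsignHom_apply Q hQ hι]
  have h5 : (dsignHom Q hQ hι (g ^ 2 ^ a)) ^ m = 1 := by rw [← map_pow, pow_eq hs, map_one]
  rcases Int.units_eq_one_or (dsignHom Q hQ hι (g ^ 2 ^ a)) with h6 | h6
  · exact h6
  · rw [h6, hs.odd.neg_one_pow] at h5
    exact absurd h5 (by decide)

/-- the order after a change on the fixed space -/
theorem orderOf_mul_cut (hQ : (polarBilin Q).Nondegenerate) {w : Cfsg.isometryGroup F (⇑Q)}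
    (hw : Supp (fixSp (g ^ 2 ^ a)) w) : orderOf (w * x) = Nat.lcm (orderOf w) (orderOf x) := by
  have hwW : ∀ z, pr (g ^ 2 ^ a) m z = 0 → act w z = z := by
    intro z hz
    apply act_eq_of_supp hQ hw
    intro u hu
    rw [polar_comm]
    exact polar_U_W hs h2 hu hz
  have hwU : ∀ z ∈ fixSp (g ^ 2 ^ a), act w z ∈ fixSp (g ^ 2 ^ a) := by
    intro z hz
    have := Submodule.add_mem _ (hw z) hz
    rwa [sub_add_cancel] at this
  have hxW : ∀ z, pr (g ^ 2 ^ a) m z = 0 → pr (g ^ 2 ^ a) m (act x z) = 0 := by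
    intro z hz
    rw [hx.eq z hz, pr_act g (Commute.self_pow g _), hz, act_zero]
  have hc : Commute w x := by
    refine ext_split hs h2 hx (fun z hz => ?_) fun z hz => ?_
    · rw [act_mul, act_mul, hx.fix z hz, hx.fix _ (hwU z hz)]
    · rw [act_mul, act_mul, hwW z hz, hwW _ (hxW z hz)]
  have hwnW : ∀ n : ℕ, ∀ z, pr (g ^ 2 ^ a) m z = 0 → act (w ^ n) z = z := by
    intro n z hz
    induction n with
    | zero => rw [pow_zero, act_one]
    | succ n ih => rw [pow_succ, act_mul, hwW z hz, ih]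
  apply Nat.dvd_antisymm hc.orderOf_mul_dvd_lcm
  have h3 := pow_orderOf_eq_one (w * x)
  rw [hc.mul_pow] at h3
  have h4 : w ^ orderOf (w * x) = 1 := by
    refine ext_split hs h2 hx (fun z hz => ?_) fun z hz => ?_
    · rw [← cut_pow_U hs h2 hx (orderOf (w * x)) hz, ← act_mul, h3, act_one, act_one,
        cut_pow_U hs h2 hx (orderOf (w * x)) hz]
    · rw [hwnW _ z hz, act_one]
  rw [h4, one_mul] at h3
  exact Nat.lcm_dvd (orderOf_dvd_of_pow_eq_one h4) (orderOf_dvd_of_pow_eq_one h3)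

end cut

/-! ### Norms -/

theorem sum_range_mul (T : Module.End F (ι → F)) (b m : ℕ) :
    ∑ i ∈ Finset.range (b * m), T ^ i =
      (∑ j ∈ Finset.range m, (T ^ b) ^ j) * ∑ i ∈ Finset.range b, T ^ i := by
  induction m with
  | zero => simp
  | succ m ih =>
    rw [Nat.mul_succ, Finset.sum_range_add, ih, Finset.sum_range_succ, add_mul, Finset.mul_sum _ _ ((T ^ b) ^ m)]
    congr 1
    exact Finset.sum_congr rfl fun i _ => by rw [pow_add, pow_mul]

theorem sum_act (g : Cfsg.isometryGroup F (⇑Q)) (n : ℕ) (v : ι → F) :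
    ∑ i ∈ Finset.range n, act (g ^ i) v = (∑ i ∈ Finset.range n, L g ^ i) v := by
  rw [LinearMap.sum_apply]
  exact Finset.sum_congr rfl fun i _ => by rw [← L_pow]; rfl

section norm

variable {g : Cfsg.isometryGroup F (⇑Q)} {a m : ℕ} (hs : Split g a m) (h2 : (2 : F) = 0)
include hs h2

theorem fix_le (z : ι → F) : z ∈ fixSp g ↔ z ∈ fixSp (g ^ 2 ^ a) ∧ (1 + L g : Module.End F (ι → F)) z = 0 := by
  have h3 : (1 + L g : Module.End F (ι → F)) z = z + act g z := rfl
  constructor
  · intro hz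
    rw [mem_fixSp] at hz
    refine ⟨?_, by rw [h3, hz, add_self_vec h2]⟩
    have h7 : ∀ n : ℕ, act (g ^ n) z = z := by
      intro n
      induction n with
      | zero => rw [pow_zero, act_one]
      | succ n ih => rw [pow_succ, act_mul, hz, ih]
    exact h7 _
  · rintro ⟨-, h4⟩
    rw [h3, ← sub_vec h2] at h4
    rw [mem_fixSp]
    exact (sub_eq_zero.1 h4).symm

theorem nilp {z : ι → F} (hz : z ∈ fixSp (g ^ 2 ^ a)) :
    ((1 + L g : Module.End F (ι → F)) ^ 2 ^ a) z = 0 := by
  rw [(geom_sum_two h2 (L g) a).1, ← L_pow]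
  change z + act (g ^ 2 ^ a) z = 0
  rw [mem_fixSp.1 hz, add_self_vec h2]

theorem stable {z : ι → F} (hz : z ∈ fixSp (g ^ 2 ^ a)) :
    (1 + L g : Module.End F (ι → F)) z ∈ fixSp (g ^ 2 ^ a) := by
  change z + act g z ∈ _
  refine Submodule.add_mem _ hz ?_
  rw [mem_fixSp, ← act_mul, ← pow_succ, pow_succ', act_mul, mem_fixSp.1 hz]

/-- the norm of an isometry -/
theorem norm_eq (v : ι → F) : ∑ i ∈ Finset.range (2 ^ a * m), act (g ^ i) v =
    ((1 + L g : Module.End F (ι → F)) ^ (2 ^ a - 1)) (pr (g ^ 2 ^ a) m v) := by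
  rw [sum_act, sum_range_mul, ← (geom_sum_two h2 (L g) a).2, ← L_pow, pr_eq]
  have hc : Commute (∑ j ∈ Finset.range m, L (g ^ 2 ^ a) ^ j) (∑ i ∈ Finset.range (2 ^ a), L g ^ i) := by
    apply Commute.sum_left
    intro j _
    apply Commute.sum_right
    intro i _
    rw [L_pow]
    exact ((Commute.refl (L g)).pow_left _).pow_left _ |>.pow_right _
  rw [hc.eq]
  rfl

/-- **If the norm of an isometry in the kernel of the Dickson invariant is not zero then the fixed space
of its odd part is large.** -/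
theorem finrank_of_norm (heven : Even (Fintype.card ι)) (hd : dsign Q g = 1) {v : ι → F}
    (hv : ∑ i ∈ Finset.range (2 ^ a * m), act (g ^ i) v ≠ 0) :
    2 ^ a + 1 ≤ Module.finrank F (fixSp (g ^ 2 ^ a)) := by
  rw [norm_eq hs h2] at hv
  have h7 : (1 : ℕ) ≤ 2 ^ a := Nat.one_le_two_pow
  have h3 : Even (Module.finrank F (fixSp g)) := by
    rw [dsign_def] at hd
    have h4 : Even (Module.finrank F (fixSp g) + Fintype.card ι) := by
      by_contra h5
      rw [Nat.not_even_iff_odd] at h5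
      rw [h5.neg_one_pow] at hd
      exact absurd hd (by decide)
    exact (Nat.even_add.1 h4).2 heven
  have h4 : 0 < Module.finrank F (fixSp g) := by
    rw [Nat.pos_iff_ne_zero]
    intro h
    apply hv
    have h5 : ((1 + L g : Module.End F (ι → F)) ^ (2 ^ a - 1)) (pr (g ^ 2 ^ a) m v) ∈ fixSp g := by
      rw [fix_le hs h2]
      constructor
      · have h8 : ∀ n : ℕ, ((1 + L g : Module.End F (ι → F)) ^ n) (pr (g ^ 2 ^ a) m v) ∈ fixSp (g ^ 2 ^ a) := by
          intro n
          induction n with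
          | zero => exact pr_mem hs h2 v
          | succ n ih =>
            rw [pow_succ']
            exact stable hs h2 ih
        exact h8 _
      · rw [← Module.End.mul_apply, ← pow_succ', Nat.sub_add_cancel h7]
        exact nilp hs h2 (pr_mem hs h2 v)
    rw [Submodule.finrank_eq_zero.1 h, Submodule.mem_bot] at h5
    exact h5
  have h5 : 2 ≤ Module.finrank F (fixSp g) := by
    obtain ⟨k, hk⟩ := h3
    omega
  have h6 := finrank_ge (1 + L g : Module.End F (ι → F)) (fixSp (g ^ 2 ^ a)) (fixSp g)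
    (fun z hz => stable hs h2 hz) (fix_le hs h2) 2 h5 (2 ^ a - 1) (2 ^ a) (fun z hz => nilp hs h2 hz)
    (pr_mem hs h2 v) hv
  omega

/-- If `g ^ 2 ^ b` is not trivial on the fixed space of `g ^ 2 ^ a` then this space is large. -/
theorem finrank_of_ne {b : ℕ} {z : ι → F} (hz : z ∈ fixSp (g ^ 2 ^ a)) (hb : act (g ^ 2 ^ b) z ≠ z) :
    2 ^ b + 1 ≤ Module.finrank F (fixSp (g ^ 2 ^ a)) := by
  have h7 : (1 : ℕ) ≤ 2 ^ a := Nat.one_le_two_pow
  have h3 : ((1 + L g : Module.End F (ι → F)) ^ 2 ^ b) z ≠ 0 := by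
    rw [(geom_sum_two h2 (L g) b).1, ← L_pow]
    change z + act (g ^ 2 ^ b) z ≠ 0
    rw [← sub_vec h2]
    intro h
    exact hb (sub_eq_zero.1 h).symm
  have h4 : 0 < Module.finrank F (fixSp g) := by
    rw [Nat.pos_iff_ne_zero]
    intro h
    have h5 : ∀ n : ℕ, ((1 + L g : Module.End F (ι → F)) ^ n) z = 0 → z = 0 := by
      intro n
      induction n with
      | zero => intro h; exact h
      | succ n ih =>
        intro hn
        apply ih
        have h6 : ((1 + L g : Module.End F (ι → F)) ^ n) z ∈ fixSp g := by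
          rw [fix_le hs h2]
          refine ⟨?_, by rw [← Module.End.mul_apply, ← pow_succ']; exact hn⟩
          clear ih hn
          induction n with
          | zero => exact hz
          | succ n ih =>
            rw [pow_succ']
            exact stable hs h2 ih
        rw [Submodule.finrank_eq_zero.1 h, Submodule.mem_bot] at h6
        exact h6
    have h6 := h5 _ (nilp hs h2 hz)
    rw [h6, map_zero] at h3
    exact h3 rfl
  have h6 := finrank_ge (1 + L g : Module.End F (ι → F)) (fixSp (g ^ 2 ^ a)) (fixSp g)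
    (fun z hz => stable hs h2 hz) (fix_le hs h2) 1 h4 (2 ^ b) (2 ^ a) (fun z hz => nilp hs h2 hz)
    hz h3
  exact h6

end norm

end Cfsg.Agent.H404.Parts
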