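import Cfsg.Agent.H404.Parts
import Cfsg.Agent.H404.Semi

/-!
# Element orders of `V ^ k ⋊ Ω(V)` in dimension eight, characteristic two

`Q` a quadratic form with non-degenerate polar form on a space `V` of dimension eight over a finite field
of characteristic two, `X` the kernel of the Dickson invariant. For `k ≥ 1` the group `V ^ k ⋊ X` has the
same element orders as the isometry group of `Q`.
-/

set_option autoImplicit false
set_option linter.unusedSectionVars false

namespace Cfsg.Agent.H404.Spec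

open Cfsg QuadraticMap
open Cfsg.Agent.ClassicalGeometry.OrthCharTwo Cfsg.Agent.ClassicalGeometry.OrthDickson
open Cfsg.Agent.ClassicalGeometry.Reflection
open Cfsg.Agent.H404.Siegel Cfsg.Agent.H404.Parts Cfsg.Agent.H404.Semi

variable {F : Type*} [Field F] {ι : Type} [Fintype ι] [DecidableEq ι]
variable {Q : QuadraticForm F (ι → F)}

/-- `k` copies of the natural module -/
def Mod (ι : Type) (F : Type*) (k : ℕ) : Type _ := Fin k → ι → F

instance instAddCommGroupMod (k : ℕ) : AddCommGroup (Mod ι F k) :=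
  inferInstanceAs (AddCommGroup (Fin k → ι → F))

instance instDistribMulActionMod (X : Subgroup (Cfsg.isometryGroup F (⇑Q))) (k : ℕ) :
    DistribMulAction X (Mod ι F k) where
  smul x f := fun j : Fin k => act (x : Cfsg.isometryGroup F (⇑Q)) (f j)
  one_smul f := funext fun j => act_one (f j)
  mul_smul x y f := funext fun j => act_mul (x : Cfsg.isometryGroup F (⇑Q)) y (f j)
  smul_zero x := funext fun j => act_zero (x : Cfsg.isometryGroup F (⇑Q))
  smul_add x f g := funext fun j => act_add (x : Cfsg.isometryGroup F (⇑Q)) (f j) (g j)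

theorem smul_apply (X : Subgroup (Cfsg.isometryGroup F (⇑Q))) (k : ℕ) (x : X) (f : Mod ι F k)
    (j : Fin k) : (x • f) j = act (x : Cfsg.isometryGroup F (⇑Q)) (f j) := rfl

theorem sum_apply (X : Subgroup (Cfsg.isometryGroup F (⇑Q))) (k : ℕ) (x : X) (f : Mod ι F k)
    (n : ℕ) (j : Fin k) : (∑ i ∈ Finset.range n, x ^ i • f) j =
      ∑ i ∈ Finset.range n, act ((x : Cfsg.isometryGroup F (⇑Q)) ^ i) (f j) := by
  have h := Finset.sum_apply j (Finset.range n) (fun i => ((x ^ i • f : Mod ι F k) : Fin k → ι → F))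
  refine h.trans ?_
  exact Finset.sum_congr rfl fun i _ => by
    rw [smul_apply, SubmonoidClass.coe_pow]

/-- the constant family -/
def const (k : ℕ) (v : ι → F) : Mod ι F k := fun _ => v

theorem const_apply (k : ℕ) (v : ι → F) (j : Fin k) : const k v j = v := rfl

theorem exists_split (g : Cfsg.isometryGroup F (⇑Q)) (h0 : 0 < orderOf g) :
    ∃ a m, orderOf g = 2 ^ a * m ∧ Split g a m ∧ orderOf (g ^ 2 ^ a) = m := by
  obtain ⟨a, m, hm, h⟩ := Nat.exists_eq_two_pow_mul_odd h0.ne'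
  refine ⟨a, m, h, ⟨by rw [← h]; exact pow_orderOf_eq_one g, hm⟩, ?_⟩
  have h1 : 0 < 2 ^ a := by positivity
  rw [orderOf_pow' _ h1.ne', h, Nat.gcd_eq_right (Dvd.intro _ rfl), Nat.mul_div_cancel_left _ h1]

theorem lcm_two_pow {a b c m : ℕ} (hc : c ∣ 2 ^ a * m) (hm : m ∣ c) (hodd : Odd m) (hab : a ≤ b) :
    Nat.lcm (2 ^ b) c = 2 ^ b * m := by
  have h1 : Nat.Coprime (2 ^ b) m := (Nat.Coprime.pow_left _ (Nat.coprime_two_left.2 hodd))
  apply Nat.dvd_antisymm
  · exact Nat.lcm_dvd (Dvd.intro _ rfl) (hc.trans (Nat.mul_dvd_mul_right (Nat.pow_dvd_pow 2 hab) m))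
  · exact h1.mul_dvd_of_dvd_of_dvd (Nat.dvd_lcm_left _ _) (hm.trans (Nat.dvd_lcm_right _ _))

theorem norm_scale (h2 : (2 : F) = 0) {b m : ℕ} (hm : Odd m) {w : Cfsg.isometryGroup F (⇑Q)}
    (hw : w ^ b = 1) (v : ι → F) :
    ∑ i ∈ Finset.range (b * m), act (w ^ i) v = ∑ i ∈ Finset.range b, act (w ^ i) v := by
  rw [sum_act, sum_range_mul, sum_act, ← L_pow, hw, L_one]
  simp only [one_pow, Finset.sum_const, Finset.card_range]
  obtain ⟨k, rfl⟩ := hm
  have h3 : ((2 * k + 1) • (1 : Module.End F (ι → F))) = 1 := by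
    rw [add_smul, one_smul, mul_comm, mul_smul, two_smul]
    have h4 : (1 : Module.End F (ι → F)) + 1 = 0 := by
      rw [← two_smul F (1 : Module.End F (ι → F)), h2, zero_smul]
    rw [h4]
    simp
  rw [h3, one_mul]

variable [Finite F] (h2 : (2 : F) = 0) (hι : Fintype.card ι = 8) (hQ : (polarBilin Q).Nondegenerate)

theorem finite_iso : Finite (Cfsg.isometryGroup F (⇑Q)) := by
  have : Finite (Matrix ι ι F) := by unfold Matrix; infer_instance
  have : Finite (Matrix.GeneralLinearGroup ι F) := Finite.of_injective (fun g => (g : Matrix ι ι F))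
    (fun _ _ h => Units.ext h)
  infer_instance

include h2 hι hQ

theorem finrank_le_eight (U : Submodule F (ι → F)) : Module.finrank F U ≤ 8 := by
  refine (Submodule.finrank_le U).trans ?_
  rw [Module.finrank_fintype_fun_eq_card, hι]

omit hι hQ in
theorem act_pow_two_even {w : Cfsg.isometryGroup F (⇑Q)} (v : ι → F) :
    v + act w v + act (w ^ 2) v + act (w ^ 3) v = ∑ i ∈ Finset.range (2 ^ 2), act (w ^ i) v := by
  have : (2 : ℕ) ^ 2 = 4 := rfl
  rw [this, Finset.sum_range_succ, Finset.sum_range_succ, Finset.sum_range_succ, Finset.sum_range_one,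
    pow_zero, pow_one, act_one]

/-- an isometry with prescribed 2-power order on a large enough space -/
theorem exists_order {U : Submodule F (ι → F)} (hU : Nd Q U) (a : ℕ)
    (h : 2 ^ a + 1 ≤ Module.finrank F U) :
    ∃ w : Cfsg.isometryGroup F (⇑Q), Supp U w ∧ orderOf w = 2 ^ (a + 1) := by
  have hp : Fact (Nat.Prime 2) := ⟨Nat.prime_two⟩
  have h8 := finrank_le_eight h2 hι hQ U
  obtain rfl | rfl | rfl | ha : a = 0 ∨ a = 1 ∨ a = 2 ∨ 3 ≤ a := by omega
  · have h9 : U ≠ ⊥ := by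
      rintro rfl
      rw [finrank_bot] at h
      omega
    obtain ⟨w, h1, h3, h4⟩ := exists_ord_two h2 hU h9
    exact ⟨w, h1, orderOf_eq_prime h3 h4⟩
  · obtain ⟨w, h1, h3, h4⟩ := exists_ord_four h2 hU h
    exact ⟨w, h1, orderOf_eq_prime_pow (p := 2) (n := 1) h4 h3⟩
  · obtain ⟨w, h1, h3, h4⟩ := exists_ord_eight h2 hU h
    exact ⟨w, h1, orderOf_eq_prime_pow (p := 2) (n := 2) h4 h3⟩
  · exfalso
    have h10 : 2 ^ 3 ≤ 2 ^ a := Nat.pow_le_pow_right (by norm_num) ha
    omega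

/-- an element of the kernel of the Dickson invariant of order `2 ^ a` and of nonzero norm -/
theorem exists_even {U : Submodule F (ι → F)} (hU : Nd Q U) (a : ℕ)
    (h : 2 ^ a + 1 ≤ Module.finrank F U) :
    ∃ w : Cfsg.isometryGroup F (⇑Q), Supp U w ∧ dsign Q w = 1 ∧ orderOf w = 2 ^ a ∧
      ∃ v ∈ U, ∑ i ∈ Finset.range (2 ^ a), act (w ^ i) v ≠ 0 := by
  have hp : Fact (Nat.Prime 2) := ⟨Nat.prime_two⟩
  have h8 := finrank_le_eight h2 hι hQ U
  obtain rfl | rfl | rfl | ha : a = 0 ∨ a = 1 ∨ a = 2 ∨ 3 ≤ a := by omega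
  · have h9 : U ≠ ⊥ := by
      rintro rfl
      rw [finrank_bot] at h
      omega
    obtain ⟨v, hv, hv0⟩ := (Submodule.ne_bot_iff U).1 h9
    refine ⟨1, supp_one U, dsign_one Q, by rw [orderOf_one, pow_zero], v, hv, ?_⟩
    rw [pow_zero, Finset.sum_range_one, pow_zero, act_one]
    exact hv0
  · obtain ⟨w, h1, h3, h4, v, hv, h5⟩ := exists_even_two h2 hQ hU h
    have h6 : w ≠ 1 := by
      rintro rfl
      apply h5
      rw [act_one, add_self_vec h2]
    refine ⟨w, h1, h3, by rw [pow_one]; exact orderOf_eq_prime h4 h6, v, hv, ?_⟩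
    rw [pow_one, Finset.sum_range_succ, Finset.sum_range_one, pow_zero, pow_one, act_one]
    exact h5
  · obtain ⟨w, h1, h3, h4, v, hv, h5⟩ := exists_even_four h2 hQ hU h
    rw [act_pow_two_even h2] at h5
    refine ⟨w, h1, h3, orderOf_eq_prime_pow (p := 2) (n := 1) ?_ h4, v, hv, h5⟩
    intro h6
    rw [pow_one] at h6
    apply h5
    rw [← act_pow_two_even h2, show w ^ 3 = w from by rw [pow_succ, h6, one_mul], h6, act_one]
    calc v + act w v + v + act w v = (v + v) + (act w v + act w v) := by abel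
      _ = 0 := by rw [add_self_vec h2, add_self_vec h2, add_zero]
  · exfalso
    have h10 : 2 ^ 3 ≤ 2 ^ a := Nat.pow_le_pow_right (by norm_num) ha
    omega

/-- the kernel of the Dickson invariant -/
noncomputable def X (Q : QuadraticForm F (ι → F)) (hι : Fintype.card ι = 8)
    (hQ : (polarBilin Q).Nondegenerate) : Subgroup (Cfsg.isometryGroup F (⇑Q)) :=
  (dsignHom Q hQ (Or.inr (by rw [hι]; norm_num))).ker

omit [Finite F] h2 in
theorem mem_X {g : Cfsg.isometryGroup F (⇑Q)} : g ∈ X Q hι hQ ↔ dsign Q g = 1 := by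
  rw [X, MonoidHom.mem_ker, dsignHom_apply]

omit [Finite F] hι hQ in
theorem mod_two (k : ℕ) (f : Mod ι F k) : f + f = 0 := by
  funext j
  exact add_self_vec h2 (f j)

/-- **Orders of elements of `V ^ k ⋊ X` are orders of isometries.** -/
theorem upper (k : ℕ) (g : G (X Q hι hQ) (Mod ι F k)) :
    ∃ y : Cfsg.isometryGroup F (⇑Q), orderOf y = orderOf g := by
  have hfin : Finite (Cfsg.isometryGroup F (⇑Q)) := finite_iso
  obtain ⟨v, x, rfl⟩ := exists_el g
  by_cases h : ∑ i ∈ Finset.range (orderOf x), x ^ i • v = 0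
  · exact ⟨x, by rw [orderOf_eq_of_eq_zero v x h, Subgroup.orderOf_coe]⟩
  rw [orderOf_eq_of_ne_zero (mod_two h2 k) v x h]
  obtain ⟨j, hj⟩ : ∃ j, (∑ i ∈ Finset.range (orderOf x), x ^ i • v) j ≠ 0 := by
    by_contra hc
    push Not at hc
    exact h (funext hc)
  rw [sum_apply] at hj
  have hx0 : orderOf (x : Cfsg.isometryGroup F (⇑Q)) = orderOf x := Subgroup.orderOf_coe x
  obtain ⟨a, m, hord, hs, hm⟩ := exists_split (x : Cfsg.isometryGroup F (⇑Q)) (orderOf_pos _)
  rw [← hx0, hord] at hj ⊢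
  have hd : dsign Q (x : Cfsg.isometryGroup F (⇑Q)) = 1 := (mem_X hι hQ).1 x.2
  have h3 := finrank_of_norm hs h2 (by rw [hι]; decide) hd hj
  obtain ⟨w, hw, hwo⟩ := exists_order h2 hι hQ (nd_U hs h2 hQ) a h3
  obtain ⟨c, hc1, hc2⟩ := exists_cut hs h2
  have hc : IsCut (x : Cfsg.isometryGroup F (⇑Q)) a m c := ⟨hc1, hc2⟩
  refine ⟨w * c, ?_⟩
  rw [orderOf_mul_cut hs h2 hc hQ hw, hwo,
    lcm_two_pow (orderOf_dvd_of_pow_eq_one (cut_pow_eq_one hs h2 hc)) (dvd_orderOf_cut hs h2 hc hm)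
      hs.odd (Nat.le_succ a), pow_succ]
  ring

/-- **Orders of isometries are orders of elements of `V ^ k ⋊ X`.** -/
theorem lower (k : ℕ) (hk : 0 < k) (y : Cfsg.isometryGroup F (⇑Q)) :
    ∃ g : G (X Q hι hQ) (Mod ι F k), orderOf g = orderOf y := by
  have hfin : Finite (Cfsg.isometryGroup F (⇑Q)) := finite_iso
  have hι' : (∃ θ : F, θ ≠ 0 ∧ θ ≠ 1) ∨ Fintype.card ι ≠ 4 := Or.inr (by rw [hι]; norm_num)
  obtain ⟨a, m, hord, hs, hm⟩ := exists_split y (orderOf_pos _)
  obtain ⟨c, hc1, hc2⟩ := exists_cut hs h2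
  have hc : IsCut y a m c := ⟨hc1, hc2⟩
  have hdc : dsign Q c = 1 := dsign_cut hs h2 hc hQ hι'
  have hcd : orderOf c ∣ 2 ^ a * m := orderOf_dvd_of_pow_eq_one (cut_pow_eq_one hs h2 hc)
  have hmc := dvd_orderOf_cut hs h2 hc hm
  by_cases hco : orderOf c = 2 ^ a * m
  · refine ⟨el 0 ⟨c, (mem_X hι hQ).2 hdc⟩, ?_⟩
    rw [orderOf_eq_of_eq_zero, ← Subgroup.orderOf_coe, hco, hord]
    simp
  -- now the order of `c` is smaller
  obtain ⟨d, hd⟩ := hmc
  have hmpos : 0 < m := hs.odd.pos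
  have hd2 : d ∣ 2 ^ a := by
    rw [hd, mul_comm (2 ^ a)] at hcd
    exact Nat.dvd_of_mul_dvd_mul_left hmpos hcd
  obtain ⟨e, he, rfl⟩ := (Nat.dvd_prime_pow Nat.prime_two).1 hd2
  have hea : e < a := by
    refine lt_of_le_of_ne he ?_
    rintro rfl
    exact hco (by rw [hd, mul_comm])
  obtain ⟨b, rfl⟩ : ∃ b, a = b + 1 := ⟨a - 1, by omega⟩
  -- `y ^ (2 ^ b * m)` is not trivial on `U`
  have hne : y ^ (2 ^ b * m) ≠ 1 := by
    intro h
    have h3 := orderOf_dvd_of_pow_eq_one h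
    rw [hord] at h3
    have h4 := Nat.le_of_dvd (by positivity) h3
    have h5 : 2 ^ (b + 1) * m = 2 * (2 ^ b * m) := by rw [pow_succ]; ring
    have h6 : 0 < 2 ^ b * m := by positivity
    omega
  have h3 : 2 ^ b + 1 ≤ Module.finrank F (fixSp (y ^ 2 ^ (b + 1))) := by
    by_contra hlt
    apply hne
    refine ext_split hs h2 hc (fun z hz => ?_) fun z hz => ?_
    · have h4 : act (y ^ 2 ^ b) z = z := by
        by_contra h5
        exact hlt (finrank_of_ne hs h2 hz h5)
      have h5 : ∀ n : ℕ, act ((y ^ 2 ^ b) ^ n) z = z := by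
        intro n
        induction n with
        | zero => rw [pow_zero, act_one]
        | succ n ih => rw [pow_succ, act_mul, h4, ih]
      rw [pow_mul, h5, act_one]
    · rw [← cut_pow_W hs h2 hc _ hz]
      have h4 : c ^ (2 ^ b * m) = 1 := by
        rw [← orderOf_dvd_iff_pow_eq_one, hd, mul_comm]
        exact Nat.mul_dvd_mul_right (Nat.pow_dvd_pow 2 (by omega)) m
      rw [h4]
  obtain ⟨w, hw, hwd, hwo, v, hv, hvn⟩ := exists_even h2 hι hQ (nd_U hs h2 hQ) b h3
  have hxo : orderOf (w * c) = 2 ^ b * m := by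
    rw [orderOf_mul_cut hs h2 hc hQ hw, hwo]
    exact lcm_two_pow (a := e) (by rw [hd, mul_comm]) (by rw [hd]; exact Dvd.intro _ rfl) hs.odd (by omega)
  have hxd : dsign Q (w * c) = 1 := by rw [dsign_mul_of_gen Q hQ hι', hwd, hdc, one_mul]
  have hact : ∀ n : ℕ, act ((w * c) ^ n) v = act (w ^ n) v ∧ act (w ^ n) v ∈ fixSp (y ^ 2 ^ (b + 1)) := by
    intro n
    induction n with
    | zero => rw [pow_zero, pow_zero, act_one]; exact ⟨rfl, hv⟩
    | succ n ih =>
      rw [pow_succ', act_mul, ih.1, act_mul, hc.fix _ ih.2, pow_succ', act_mul]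
      refine ⟨rfl, ?_⟩
      have := Submodule.add_mem _ (hw (act (w ^ n) v)) ih.2
      rwa [sub_add_cancel] at this
  let x : X Q hι hQ := ⟨w * c, (mem_X hι hQ).2 hxd⟩
  have hx : orderOf x = 2 ^ b * m := by rw [← Subgroup.orderOf_coe]; exact hxo
  refine ⟨el (const k v) x, ?_⟩
  rw [orderOf_eq_of_ne_zero (mod_two h2 k), hx, hord, pow_succ]
  · ring
  · intro h
    have h4 : (∑ i ∈ Finset.range (orderOf x), x ^ i • const k v) ⟨0, hk⟩ = 0 := congrFun h ⟨0, hk⟩
    rw [sum_apply, hx] at h4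
    apply hvn
    rw [← norm_scale h2 hs.odd (by rw [← hwo]; exact pow_orderOf_eq_one w) v]
    refine Eq.trans ?_ h4
    exact Finset.sum_congr rfl fun i _ => (hact i).1.symm

theorem range_eq (k : ℕ) (hk : 0 < k) :
    Set.range (orderOf : G (X Q hι hQ) (Mod ι F k) → ℕ) =
      Set.range (orderOf : Cfsg.isometryGroup F (⇑Q) → ℕ) := by
  ext n
  constructor
  · rintro ⟨g, rfl⟩
    exact upper h2 hι hQ k g
  · rintro ⟨y, rfl⟩
    exact lower h2 hι hQ k hk y

end Cfsg.Agent.H404.Spec
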